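import Cfsg.Agent.H477.HC.RowSp
import Cfsg.Agent.H720.PV.Tools

/-!
# The vanishing of the top Harish-Chandra characters (helper720, S4555 / S4559)

* `Mix f` : the characteristic polynomial of `f` is no power of an irreducible polynomial;
* `mix_of` : `f ^ n = 1`, `n` prime to the characteristic, `f` has a non-zero fixed vector and `f ≠ 1`;
* `PVan c` : the class function `c` of `GL_k(K)` vanishes at the mixed elements; `psi_pvan`;
* `hc_eq_zero` : `F.hc c ψ s = 0` if `s` is mixed on all `s`-invariant members of `F.Om k`;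
* `hc_eq_zero_of` : the same for `s ^ n = 1`, in terms of `range (s - 1)`.
-/

set_option autoImplicit false

open scoped ComplexConjugate
open Cfsg

namespace Cfsg.Agent.H720.PV

open Polynomial Module Cfsg.Agent.Characters Cfsg.Agent.H53.HC Cfsg.Agent.H477.HC Cfsg.Agent.H139.Cusp

universe u v w

section Mix

variable {K : Type u} [Field K] {W : Type v} [AddCommGroup W] [Module K W] [Module.Finite K W]

/-- the characteristic polynomial is no power of an irreducible polynomial -/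
def Mix (f : W →ₗ[K] W) : Prop := ∀ (g : K[X]) (m : ℕ), Irreducible g → f.charpoly ≠ g ^ m

/-- `f ^ n = 1`, `n` prime to the characteristic, `f` has a non-zero fixed vector and `f ≠ 1` -/
theorem mix_of {f : W →ₗ[K] W} {n : ℕ} (hn : (n : K) ≠ 0) (hf : f ^ n = 1) {v w : W} (hv : v ≠ 0) (hfv : f v = v)
    (hfw : f w ≠ w) : Mix f := by
  intro g m hg h
  apply hfw
  have h1 : (X - C (1 : K)) ∣ f.charpoly := by
    rw [dvd_iff_isRoot, ← Module.End.hasEigenvalue_iff_isRoot_charpoly]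
    exact Module.End.hasEigenvalue_of_hasEigenvector ⟨by rw [Module.End.mem_eigenspace_iff, one_smul]; exact hfv, hv⟩
  have hirr : Irreducible (X - C (1 : K)) := irreducible_X_sub_C 1
  rw [h] at h1
  have h2 : (X - C (1 : K)) ∣ g := hirr.prime.dvd_of_dvd_pow h1
  have h3 : Associated (X - C (1 : K)) g := hirr.associated_of_dvd hg h2
  have h4 : Associated ((X - C (1 : K)) ^ m) f.charpoly := by rw [h]; exact h3.pow_pow
  have h5 : aeval f ((X - C (1 : K)) ^ m) = 0 := by
    obtain ⟨c, hc⟩ := h4.symm.dvd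
    rw [hc, map_mul, LinearMap.aeval_self_charpoly, zero_mul]
  -- the cofactor
  obtain ⟨Φ, hΦ⟩ : (X - C (1 : K)) ∣ X ^ n - 1 := by
    rw [dvd_iff_isRoot]; simp
  have hΦ1 : Φ.eval 1 = n := by
    have h6 := congrArg (fun p : K[X] => (derivative p).eval 1) hΦ
    simp only [derivative_sub, derivative_X_pow, derivative_one, derivative_mul, derivative_X, derivative_C, eval_sub,
      eval_mul, eval_add, eval_X, eval_C, eval_pow, sub_zero, sub_self, one_pow, mul_one, zero_mul,
      add_zero, one_mul] at h6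
    exact h6.symm
  have hcop : IsCoprime ((X - C (1 : K)) ^ m) Φ := by
    apply IsCoprime.pow_left
    rw [hirr.coprime_iff_not_dvd, dvd_iff_isRoot, IsRoot.def, hΦ1]
    exact hn
  obtain ⟨a, b, hab⟩ := hcop
  have h7 : aeval f (X ^ n - 1 : K[X]) = 0 := by
    rw [map_sub, map_pow, aeval_X, hf, map_one, sub_self]
  have h8 : aeval f (X - C (1 : K)) = 0 := by
    have h9 : (X - C (1 : K)) = (X - C (1 : K)) * a * (X - C (1 : K)) ^ m + b * (X ^ n - 1) := by
      rw [hΦ]
      linear_combination (-(X - C (1 : K))) * hab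
    rw [h9, map_add, map_mul, map_mul _ b, h5, h7, mul_zero, mul_zero, add_zero]
  have h10 : f w - w = 0 := by
    have := congrArg (fun φ : W →ₗ[K] W => φ w) h8
    simpa using this
  exact sub_eq_zero.1 h10

end Mix

section PVan

variable {K : Type u} [Field K] {k : ℕ}

/-- the class function vanishes at the mixed elements -/
def PVan (c : GL (Fin k) K → ℂ) : Prop :=
  ∀ A : GL (Fin k) K, Mix (Matrix.toLin' (A : Matrix (Fin k) (Fin k) K)) → c A = 0

theorem psi_pvan [Finite K] (L : Type w) [Field L] [Algebra K L] (θ : L →*₀ ℂ) (hk : 0 < k) :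
    PVan (psi (n := k) (F := K) L θ) := by
  intro A hA
  have : NeZero k := ⟨hk.ne'⟩
  have : Nonempty (Fin k) := ⟨⟨0, hk⟩⟩
  change cusp L θ (Matrix.toLin' (A : Matrix (Fin k) (Fin k) K)) = 0
  unfold cusp
  rcases kap_eq_zero_or (lb L θ) (lb_mul L θ) (Matrix.toLin' (A : Matrix (Fin k) (Fin k) K)) with
    ⟨f, m, -, hirr, -, h⟩ | h
  · exact absurd h (hA f m hirr)
  · rw [h, mul_zero]

theorem PVan.cl_eq_zero {W : Type v} [AddCommGroup W] [Module K W] [Module.Finite K W] {c : GL (Fin k) K → ℂ}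
    (hcl : IsClassFunction _ c) (h : PVan c) (hW : finrank K W = k) {f : W ≃ₗ[K] W} (hf : Mix (f : W →ₗ[K] W)) :
    cl c f = 0 := by
  rw [cl_eq hcl (finBasisOfFinrankEq K W hW)]
  apply h
  intro g m hg
  rw [coe_glE]
  have h1 : (Matrix.toLin' (LinearMap.toMatrix (finBasisOfFinrankEq K W hW) (finBasisOfFinrankEq K W hW)
      (f : W →ₗ[K] W))).charpoly = (f : W →ₗ[K] W).charpoly := by
    rw [← LinearMap.charpoly_toMatrix _ (Pi.basisFun K (Fin k)), LinearMap.toMatrix_eq_toMatrix',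
      LinearMap.toMatrix'_toLin', LinearMap.charpoly_toMatrix]
  rw [h1]
  exact hf g m hg

end PVan

section Main

variable {K : Type u} [Field K] {V : Type v} [AddCommGroup V] [Module K V] (F : CForm K V)

theorem hc_eq_zero [FiniteDimensional K V] {k : ℕ} [Fintype (F.Om k)] {c : GL (Fin k) K → ℂ}
    (hcl : IsClassFunction _ c) (hv : PVan c) (ψ : F.iso → Submodule K V → ℂ) {s : F.iso}
    (h : ∀ W ∈ F.Om k, ∀ hW : W.map (F.iso.subtype s : V →ₗ[K] V) = W,
      Mix (res (F.iso.subtype s) W hW : W →ₗ[K] W)) : F.hc c ψ s = 0 := by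
  unfold CForm.hc
  refine Finset.sum_eq_zero fun W _ => ?_
  by_cases hW : W.1.map (F.iso.subtype s : V →ₗ[K] V) = W.1
  · rw [flagTerm_of F.iso.subtype c hW, hv.cl_eq_zero hcl W.2.2 (h W.1 W.2 hW), zero_mul]
  · unfold flagTerm
    rw [dif_neg hW, zero_mul]

/-- `range (s - 1)` -/
def mov (s : V ≃ₗ[K] V) : Submodule K V := LinearMap.range ((s : V →ₗ[K] V) - LinearMap.id)

/-- `s` a semisimple isometry: the fixed vectors are orthogonal to `range (s - 1)` -/
theorem perp_mov (s : F.iso) {v w : V} (hv : (s : V ≃ₗ[K] V) v = v) (hw : w ∈ mov (s : V ≃ₗ[K] V)) : F.B v w = 0 := by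
  obtain ⟨x, rfl⟩ := hw
  rw [LinearMap.sub_apply, LinearMap.id_apply, F.B_sub_right, sub_eq_zero]
  conv_lhs => rw [← hv]
  exact F.iso_B s v x

/-- the average over the powers of `s` -/
theorem decomp {s : V ≃ₗ[K] V} {n : ℕ} (hn : (n : K) ≠ 0) (hs : s ^ n = 1) (W : Submodule K V)
    (hW : ∀ w ∈ W, s w ∈ W) : ∀ w ∈ W, ∃ a ∈ W, ∃ b ∈ W, s a = a ∧ b ∈ mov s ∧ a + b = w := by
  intro w hw
  have hpow : ∀ (i : ℕ), (s ^ i) w ∈ W := by
    intro i
    induction i with
    | zero => exact hw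
    | succ i ih =>
      rw [pow_succ', LinearEquiv.mul_apply]
      exact hW _ ih
  let a : V := ((n : K)⁻¹) • ∑ i ∈ Finset.range n, (s ^ i) w
  have ha : a ∈ W := W.smul_mem _ (W.sum_mem fun i _ => hpow i)
  have hsa : s a = a := by
    change s (((n : K)⁻¹) • ∑ i ∈ Finset.range n, (s ^ i) w) = ((n : K)⁻¹) • ∑ i ∈ Finset.range n, (s ^ i) w
    rw [map_smul, map_sum]
    congr 1
    have e1 : ∀ i, s ((s ^ i) w) = (s ^ (i + 1)) w := fun i => by rw [pow_succ', LinearEquiv.mul_apply]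
    rw [Finset.sum_congr rfl fun i _ => e1 i]
    have e2 := Finset.sum_range_succ' (fun i => (s ^ i) w) n
    rw [Finset.sum_range_succ, hs, pow_zero] at e2
    exact (add_right_cancel e2).symm
  have hmov : ∀ i : ℕ, w - (s ^ i) w ∈ mov s := by
    intro i
    induction i with
    | zero => rw [pow_zero]; change w - w ∈ _; rw [sub_self]; exact Submodule.zero_mem _
    | succ i ih =>
      have e : w - (s ^ (i + 1)) w = (w - (s ^ i) w) + (-(s ((s ^ i) w) - (s ^ i) w)) := by
        rw [pow_succ', LinearEquiv.mul_apply]; abel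
      rw [e]
      exact Submodule.add_mem _ ih (Submodule.neg_mem _ ⟨(s ^ i) w, rfl⟩)
  refine ⟨a, ha, w - a, W.sub_mem hw ha, hsa, ?_, by abel⟩
  have e : w - a = ((n : K)⁻¹) • ∑ i ∈ Finset.range n, (w - (s ^ i) w) := by
    rw [Finset.sum_sub_distrib, smul_sub, Finset.sum_const, Finset.card_range, ← Nat.cast_smul_eq_nsmul K, smul_smul,
      inv_mul_cancel₀ hn, one_smul]
  rw [e]
  exact Submodule.smul_mem _ _ (Submodule.sum_mem _ fun i _ => hmov i)

/-- fixed vectors in `range (s - 1)` -/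
theorem eq_zero_of_mov {s : V ≃ₗ[K] V} {n : ℕ} (hn : (n : K) ≠ 0) (hs : s ^ n = 1) {v : V} (hv : s v = v)
    (hm : v ∈ mov s) : v = 0 := by
  obtain ⟨x, hx⟩ := hm
  rw [LinearMap.sub_apply, LinearMap.id_apply] at hx
  have hx' : s x = x + v := by rw [← hx]; exact (add_sub_cancel _ _).symm
  have h1 : ∀ i : ℕ, (s ^ i) x = x + (i : K) • v := by
    intro i
    induction i with
    | zero => rw [pow_zero, Nat.cast_zero, zero_smul, add_zero]; rfl
    | succ i ih =>
      rw [pow_succ', LinearEquiv.mul_apply, ih, map_add, map_smul, hv, hx', Nat.cast_succ, add_smul, one_smul]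
      abel
  have h2 := h1 n
  rw [hs] at h2
  have h3 : (n : K) • v = 0 := by
    have : x = x + (n : K) • v := h2
    exact (add_eq_left.1 this.symm)
  exact (smul_eq_zero.1 h3).resolve_left hn

theorem finrank_add_perp_le [FiniteDimensional K V] (A : Submodule K V) :
    finrank K A + finrank K (F.perp A) ≤ finrank K V := by
  obtain ⟨D, hD⟩ := (F.perp A).exists_isCompl
  have h1 : A ⊓ F.perp D = ⊥ := by
    rw [Submodule.eq_bot_iff]
    rintro a ⟨ha, ha'⟩
    refine F.nondeg a fun u => ?_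
    have hu : u ∈ F.perp A ⊔ D := by rw [hD.sup_eq_top]; trivial
    obtain ⟨x, hx, y, hy, rfl⟩ := Submodule.mem_sup.1 hu
    rw [F.B_add_right, F.B_eq_zero (hx a ha), ha' y hy, add_zero]
  have h2 := F.finrank_le_of_opp h1
  have h3 := Submodule.finrank_add_eq_of_isCompl hD
  omega

/-- orthogonal independent subspaces -/
theorem dim_bound [FiniteDimensional K V] {A C D : Submodule K V} (hAC : ∀ a ∈ A, ∀ c ∈ C, F.B c a = 0)
    (hAD : ∀ a ∈ A, ∀ d ∈ D, F.B d a = 0) (hCD : C ⊓ D = ⊥) :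
    finrank K A + (finrank K C + finrank K D) ≤ finrank K V := by
  have h1 : C ⊔ D ≤ F.perp A := sup_le (fun c hc a ha => hAC a ha c hc) fun d hd a ha => hAD a ha d hd
  have h2 := Submodule.finrank_mono h1
  have h3 := finrank_add_perp_le F A
  have h4 := Submodule.finrank_sup_add_finrank_inf_eq C D
  rw [hCD, finrank_bot, add_zero] at h4
  omega

theorem finrank_fix_add_mov [FiniteDimensional K V] (s : V ≃ₗ[K] V) :
    finrank K (LinearMap.ker ((s : V →ₗ[K] V) - LinearMap.id)) + finrank K (mov s) = finrank K V := by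
  rw [add_comm]
  exact LinearMap.finrank_range_add_finrank_ker _

/-- **the criterion**: `s` of order prime to the characteristic, `dim [V, s] < 2 k`, no totally singular `k`-subspace is
centralised by `s` -/
theorem hc_eq_zero_of [FiniteDimensional K V] {k : ℕ} [Fintype (F.Om k)] {c : GL (Fin k) K → ℂ}
    (hcl : IsClassFunction _ c) (hv : PVan c) (ψ : F.iso → Submodule K V → ℂ) {s : F.iso} {n : ℕ} (hn : (n : K) ≠ 0)
    (hs : (s : V ≃ₗ[K] V) ^ n = 1) (h1 : finrank K (mov (s : V ≃ₗ[K] V)) < 2 * k)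
    (h2 : ∀ W ∈ F.Om k, ∃ w ∈ W, (s : V ≃ₗ[K] V) w ≠ w) : F.hc c ψ s = 0 := by
  refine hc_eq_zero F hcl hv ψ fun W hWk hW => ?_
  have hinv : ∀ w ∈ W, (s : V ≃ₗ[K] V) w ∈ W := fun w hw => by
    rw [← hW]; exact ⟨w, hw, rfl⟩
  obtain ⟨w, hw, hsw⟩ := h2 W hWk
  -- a fixed vector
  obtain ⟨v, hvW, hv0, hsv⟩ : ∃ v ∈ W, v ≠ 0 ∧ (s : V ≃ₗ[K] V) v = v := by
    by_contra hcon
    push Not at hcon
    have hWm : W ≤ mov (s : V ≃ₗ[K] V) := by
      intro w hw
      obtain ⟨a, ha, b, hb, hsa, hbm, rfl⟩ := decomp hn hs W hinv w hw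
      have ha0 : a = 0 := by
        by_contra h
        exact hcon a ha h hsa
      rw [ha0, zero_add]
      exact hbm
    have h3 := dim_bound F (A := W) (C := W) (D := LinearMap.ker (((s : V ≃ₗ[K] V) : V →ₗ[K] V) - LinearMap.id))
      (fun a ha c hc => hWk.1.2 c hc a ha) (fun a ha d hd => by
        rw [LinearMap.mem_ker, LinearMap.sub_apply, LinearMap.id_apply, sub_eq_zero] at hd
        exact perp_mov F s hd (hWm ha)) (by
        rw [Submodule.eq_bot_iff]
        rintro x ⟨hx, hx'⟩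
        by_contra hx0
        have hx'' : x ∈ LinearMap.ker (((s : V ≃ₗ[K] V) : V →ₗ[K] V) - LinearMap.id) := hx'
        rw [LinearMap.mem_ker, LinearMap.sub_apply, LinearMap.id_apply, sub_eq_zero] at hx''
        exact hcon x hx hx0 hx'')
    have h4 := finrank_fix_add_mov (s : V ≃ₗ[K] V)
    have h5 := hWk.2
    omega
  have hres : (res (F.iso.subtype s) W hW : W →ₗ[K] W) ^ n = 1 := by
    have h3 : ∀ (i : ℕ) (x : W), ((((res (F.iso.subtype s) W hW : W →ₗ[K] W) ^ i) x : W) : V) =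
        ((s : V ≃ₗ[K] V) ^ i) x := by
      intro i
      induction i with
      | zero => intro x; rfl
      | succ i ih =>
        intro x
        rw [pow_succ', pow_succ', Module.End.mul_apply, LinearEquiv.mul_apply, ← ih]
        rfl
    ext x
    rw [h3, hs]
    rfl
  refine mix_of (v := ⟨v, hvW⟩) (w := ⟨w, hw⟩) hn hres ?_ ?_ ?_
  · intro h
    exact hv0 (congrArg Subtype.val h)
  · exact Subtype.ext hsv
  · intro h
    exact hsw (congrArg Subtype.val h)

/-- the second condition, from the dimensions -/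
theorem exists_moved_of_dim [FiniteDimensional K V] {k : ℕ} {s : F.iso} {n : ℕ} (hn : (n : K) ≠ 0)
    (hs : (s : V ≃ₗ[K] V) ^ n = 1) (h : finrank K V < 2 * k + finrank K (mov (s : V ≃ₗ[K] V))) :
    ∀ W ∈ F.Om k, ∃ w ∈ W, (s : V ≃ₗ[K] V) w ≠ w := by
  intro W hW
  by_contra hcon
  push Not at hcon
  have h3 := dim_bound F (A := W) (C := W) (D := mov (s : V ≃ₗ[K] V))
    (fun a ha c hc => hW.1.2 c hc a ha) (fun a ha d hd => F.B_eq_zero (perp_mov F s (hcon a ha) hd)) (by
      rw [Submodule.eq_bot_iff]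
      rintro x ⟨hx, hx'⟩
      exact eq_zero_of_mov hn hs (hcon x hx) hx')
  have h5 := hW.2
  omega

/-- the second condition, for `k` the Witt index and a singular vector in `[V, s]` -/
theorem exists_moved_of_sing [FiniteDimensional K V] {k : ℕ} {s : F.iso} {n : ℕ} (hn : (n : K) ≠ 0)
    (hs : (s : V ≃ₗ[K] V) ^ n = 1) (hk : ∀ W, F.TS W → finrank K W ≤ k) {u : V} (hu : u ∈ mov (s : V ≃ₗ[K] V))
    (hu0 : u ≠ 0) (hus : F.Sing u) : ∀ W ∈ F.Om k, ∃ w ∈ W, (s : V ≃ₗ[K] V) w ≠ w := by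
  intro W hW
  by_contra hcon
  push Not at hcon
  have hBu : ∀ w ∈ W, F.B w u = 0 := fun w hw => perp_mov F s (hcon w hw) hu
  have hTS : F.TS (W ⊔ Submodule.span K {u}) := by
    have hQ : ∀ w ∈ W, ∀ a : K, F.Q (w + a • u) = 0 := by
      intro w hw a
      rw [F.Q_add, F.Q_smul, hus.1, hW.1.1 w hw, F.B_smul_right, hBu w hw, mul_zero, mul_zero, F.T_zero, add_zero,
        add_zero]
    refine ⟨fun x hx => ?_, fun x hx y hy => ?_⟩
    · obtain ⟨w, hw, z, hz, rfl⟩ := Submodule.mem_sup.1 hx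
      obtain ⟨a, rfl⟩ := Submodule.mem_span_singleton.1 hz
      exact hQ w hw a
    · obtain ⟨w, hw, z, hz, rfl⟩ := Submodule.mem_sup.1 hx
      obtain ⟨a, rfl⟩ := Submodule.mem_span_singleton.1 hz
      obtain ⟨w', hw', z', hz', rfl⟩ := Submodule.mem_sup.1 hy
      obtain ⟨b, rfl⟩ := Submodule.mem_span_singleton.1 hz'
      rw [F.B_add_left, F.B_add_right, F.B_add_right, F.B_smul_left, F.B_smul_left, F.B_smul_right, F.B_smul_right,
        hW.1.2 w hw w' hw', hBu w hw, F.B_eq_zero (hBu w' hw'), hus.2]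
      ring
  have h1 := hk _ hTS
  have h2 : W ⊓ Submodule.span K {u} = ⊥ := by
    rw [Submodule.eq_bot_iff]
    rintro x ⟨hx, hx'⟩
    obtain ⟨a, rfl⟩ := Submodule.mem_span_singleton.1 hx'
    exact eq_zero_of_mov hn hs (hcon _ hx) (Submodule.smul_mem _ _ hu)
  have h4 := Submodule.finrank_sup_add_finrank_inf_eq W (Submodule.span K {u})
  rw [h2, finrank_bot, add_zero, finrank_span_singleton hu0, hW.2] at h4
  omega

/-- the irreducible character of the isometry group, with its values at `1`, at scalars and its zeros -/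
theorem exists_char_v [Finite K] [Finite V] [FiniteDimensional K V] {k : ℕ} {W₀ : Submodule K V} (hW₀ : W₀ ∈ F.Om k)
    {Z : Kˣ → Prop} {c : GL (Fin k) K → ℂ} (hc : Cus K k F.σ Z c) (hv : PVan c) :
    ∃ χ : F.iso → ℂ, IsIrrCharacter F.iso χ ∧ χ 1 = (dg F k : ℂ) ∧
      (∀ (z : F.iso) (a : Kˣ), Z a → (∀ v, (z : V ≃ₗ[K] V) v = (a : K) • v) → χ z = χ 1) ∧
      ∀ (s : F.iso) (n : ℕ), (n : K) ≠ 0 → (s : V ≃ₗ[K] V) ^ n = 1 → finrank K (mov (s : V ≃ₗ[K] V)) < 2 * k →
        (∀ W ∈ F.Om k, ∃ w ∈ W, (s : V ≃ₗ[K] V) w ≠ w) → χ s = 0 := by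
  have := finite_Om F k
  have := finite_iso F
  let _ := Fintype.ofFinite (F.Om k)
  let _ := Fintype.ofFinite F.iso
  have hcl := Core.isIrr_isClassFunction hc.irr
  refine ⟨F.hc c (fun _ _ => 1), F.isIrr_hc_one hc.irr hc.cusp hc.dual hW₀, ?_, fun z a ha hz => ?_,
    fun s n hn hs h1 h2 => hc_eq_zero_of F hcl hv _ hn hs h1 h2⟩
  · rw [F.hc_one hcl (fun _ _ => 1) (d := 1) (fun _ _ => rfl), hc.deg, mul_one]
    unfold dg
    rw [Nat.cast_mul]
  · exact F.hc_scalar hcl (fun _ _ => 1) hz (hc.scal a ha) (fun _ _ => rfl)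

end Main

section Cus

variable {K : Type u} [Field K] [Finite K]

theorem exists_cus_v (k : ℕ) (hk : 0 < k) (a : ℕ) (ha : a ≠ 0)
    (hreg : ∀ i, 0 < i → i < k → ¬ (Nat.card K ^ k - 1) ∣ a * (Nat.card K ^ i - 1))
    (hdual : ∀ i, i < k → ¬ (Nat.card K ^ k - 1) ∣ a * Nat.card K ^ i + a) :
    ∃ c : GL (Fin k) K → ℂ, Cus K k (RingHom.id K) (fun z => z ^ a = 1) c ∧ PVan c := by
  classical
  obtain ⟨L, _, _, _, hL⟩ := exists_L K k hk
  obtain ⟨θ, hθ⟩ := exists_theta L
  have hcardL : Nat.card Lˣ = Nat.card K ^ k - 1 := by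
    rw [Nat.card_units, Module.natCard_eq_pow_finrank (K := K), hL]
  have hR : Regular K k (powTheta θ a ha) := (regular_powTheta_iff hθ ha hL).2 hreg
  refine ⟨psi L (powTheta θ a ha), ⟨psi_isIrr _ hL hR, psi_isCusp L _, ?_, ?_, ?_⟩, psi_pvan L _ hk⟩
  · intro h
    have h1 : ∀ g : ((Fin k → K) →ₗ[K] (Fin k → K))ˣ, cusp L (powTheta θ a ha) (g : (Fin k → K) →ₗ[K] (Fin k → K)) =
        cusp L (conjTheta (powTheta θ a ha)) (g : (Fin k → K) →ₗ[K] (Fin k → K)) := by
      intro g
      let A : GL (Fin k) K := Matrix.GeneralLinearGroup.toLin.symm g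
      have h2 := congrFun h A
      have h3 : ((Matrix.GeneralLinearGroup.map (RingHom.id K)).comp (invT k)) A = invT k A := by
        ext i j
        rfl
      rw [Function.comp_apply, h3, psi_invT _ hL] at h2
      have h4 : psi L (powTheta θ a ha) A = cusp L (powTheta θ a ha) (g : (Fin k → K) →ₗ[K] (Fin k → K)) := by
        have h5 : Matrix.GeneralLinearGroup.toLin A = g := MulEquiv.apply_symm_apply _ g
        rw [← h5]
        rfl
      rw [h4, cusp_star] at h2
      exact h2.symm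
    obtain ⟨i, hi, h2⟩ := (cusp_eq_iff (V := Fin k → K) (powTheta θ a ha) (conjTheta (powTheta θ a ha))
      (by rw [Module.finrank_fin_fun, hL]) (by rw [hL]; exact hR)).1 h1
    rw [hL] at hi
    have h3 := (conj_powTheta_eq_iff hθ ha ha (pow_ne_zero i (Nat.card_pos (α := K)).ne')).1 h2
    rw [hcardL] at h3
    exact hdual i hi h3
  · intro z hz
    have h1 := psi_scalar (powTheta θ a ha) hL z 1
    rw [mul_one] at h1
    rw [h1, powTheta_eq_one ha, one_mul]
    rw [← map_pow, ← Units.val_pow_eq_pow_val, hz, Units.val_one, map_one]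
  · rw [psi_one L _ hk, degP_eq_Ico]

/-- `θ = φ²`, `q` odd -/
theorem exists_cus_two_v {q : ℕ} (hq : Nat.card K = q) (h3 : 3 ≤ q) (k : ℕ) (hk : 0 < k) (h5 : 5 < q ^ k)
    (h32 : ¬ (q = 3 ∧ k = 2)) : ∃ c : GL (Fin k) K → ℂ, Cus K k (RingHom.id K) (fun z => z ^ 2 = 1) c ∧ PVan c := by
  refine exists_cus_v k hk 2 two_ne_zero (fun i hi hik h => ?_) (fun i hik h => ?_)
  · rw [hq] at h
    have h1 := mul_sub_lt h3 hik
    have h2 : 0 < 2 * (q ^ i - 1) := by
      have : 1 < q ^ i := Nat.one_lt_pow hi.ne' (by omega)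
      omega
    exact absurd (Nat.le_of_dvd h2 h) (by omega)
  · rw [hq] at h
    have h1 := Nat.le_of_dvd (by omega) h
    rcases Nat.eq_zero_or_pos i with rfl | hi
    · rw [pow_zero] at h1
      have h6 : q ^ k = 6 ∨ 6 < q ^ k := by omega
      rcases h6 with h6 | h6
      · rw [h6, pow_zero] at h; revert h; decide
      · omega
    · have h6 : q ^ i ≤ q ^ (k - 1) := Nat.pow_le_pow_right (by omega) (by omega)
      have h7 : q ^ k = q ^ (k - 1) * q := by rw [← pow_succ]; congr 1; omega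
      have h8 : q ≤ q ^ (k - 1) := by
        calc q = q ^ 1 := (pow_one q).symm
          _ ≤ _ := Nat.pow_le_pow_right (by omega) (by omega)
      rcases Nat.lt_or_ge q 4 with h9 | h9
      · have hq3 : q = 3 := by omega
        subst hq3
        have hk3 : 3 ≤ k := by omega
        have h10 : 3 ^ 2 ≤ 3 ^ (k - 1) := Nat.pow_le_pow_right (by omega) (by omega)
        omega
      · have h10 : q ^ (k - 1) * 4 ≤ q ^ (k - 1) * q := Nat.mul_le_mul_left _ h9
        omega

/-- `θ = φ` -/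
theorem exists_cus_one_v {q : ℕ} (hq : Nat.card K = q) (k : ℕ) (hk : 0 < k) (h5 : 3 < q ^ k)
    (h22 : ¬ (q = 2 ∧ k = 2)) : ∃ c : GL (Fin k) K → ℂ, Cus K k (RingHom.id K) (fun z => z ^ 1 = 1) c ∧ PVan c := by
  have h2 : 2 ≤ q := by rw [← hq]; exact Finite.one_lt_card
  refine exists_cus_v k hk 1 one_ne_zero (fun i hi hik h => ?_) (fun i hik h => ?_)
  · rw [hq, one_mul] at h
    have h1 : q ^ i < q ^ k := Nat.pow_lt_pow_right h2 hik
    have h3 : 1 < q ^ i := Nat.one_lt_pow hi.ne' (by omega)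
    exact absurd (Nat.le_of_dvd (by omega) h) (by omega)
  · rw [hq, one_mul] at h
    have h1 := Nat.le_of_dvd (by omega) h
    rcases Nat.eq_zero_or_pos i with rfl | hi
    · rw [pow_zero] at h1 h
      omega
    · have h6 : q ^ i ≤ q ^ (k - 1) := Nat.pow_le_pow_right (by omega) (by omega)
      have h7 : q ^ k = q ^ (k - 1) * q := by rw [← pow_succ]; congr 1; omega
      have h8 : q ≤ q ^ (k - 1) := by
        calc q = q ^ 1 := (pow_one q).symm
          _ ≤ _ := Nat.pow_le_pow_right (by omega) (by omega)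
      rcases Nat.lt_or_ge q 3 with h9 | h9
      · have hq3 : q = 2 := by omega
        subst hq3
        have hk3 : 3 ≤ k := by omega
        have h10 : 2 ^ 2 ≤ 2 ^ (k - 1) := Nat.pow_le_pow_right (by omega) (by omega)
        omega
      · have h10 : q ^ (k - 1) * 3 ≤ q ^ (k - 1) * q := Nat.mul_le_mul_left _ h9
        omega

/-- a cuspidal datum trivial on `±1` -/
theorem exists_cus_sq_v (K : Type u) [Field K] [Finite K] {q : ℕ} (hq : Nat.card K = q) (k : ℕ) (hk : 0 < k)
    (h2 : q = 2 → 3 ≤ k) (h3 : q = 3 → 3 ≤ k) (h5 : q = 5 → 2 ≤ k) :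
    ∃ c : GL (Fin k) K → ℂ, Cus K k (RingHom.id K) (fun z => z ^ 2 = 1) c ∧ PVan c := by
  have hq2 : 2 ≤ q := by rw [← hq]; exact Finite.one_lt_card
  have hpow : ∀ j, j ≤ k → q ^ j ≤ q ^ k := fun j hj => Nat.pow_le_pow_right (by omega) hj
  rcases Nat.even_or_odd q with he | ho
  · obtain ⟨c, hc, hv⟩ := exists_cus_one_v (K := K) hq k hk (by
      rcases Nat.lt_or_ge q 3 with h | h
      · have h6 : q = 2 := by omega
        have h7 := hpow 3 (h2 h6)
        rw [h6] at h7 ⊢
        omega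
      · have h6 : q ≠ 3 := by rintro rfl; revert he; decide
        have h7 := hpow 1 hk
        rw [pow_one] at h7
        omega) (by rintro ⟨h6, h7⟩; have := h2 h6; omega)
    have h2K : (2 : K) = 0 := by
      let _ := Fintype.ofFinite K
      obtain ⟨p, hp⟩ := CharP.exists K
      have hpr : p.Prime := (CharP.char_is_prime_or_zero K p).resolve_right (CharP.char_ne_zero_of_finite K p)
      have : Fact p.Prime := ⟨hpr⟩
      obtain ⟨n, hn⟩ := card_pow K p
      have h6 : 2 ∣ p ^ n := by rw [← hn, hq]; exact he.two_dvd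
      have h7 : p = 2 := ((Nat.prime_dvd_prime_iff_eq Nat.prime_two hpr).1 (Nat.prime_two.dvd_of_dvd_pow h6)).symm
      subst h7
      exact_mod_cast (CharP.cast_eq_zero K 2)
    refine ⟨c, ⟨hc.irr, hc.cusp, hc.dual, fun z hz => hc.scal z ?_, hc.deg⟩, hv⟩
    rw [pow_one]
    have h8 : ((z : K) - 1) ^ 2 = 0 := by
      have h9 : (z : K) ^ 2 = 1 := by
        rw [← Units.val_pow_eq_pow_val, hz, Units.val_one]
      linear_combination h9 - ((z : K) - 1) * h2K
    exact Units.ext (sub_eq_zero.1 (pow_eq_zero_iff two_ne_zero |>.1 h8))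
  · have h6 : 3 ≤ q := by
      rcases ho with ⟨j, hj⟩; omega
    refine exists_cus_two_v (K := K) hq h6 k hk ?_ (by rintro ⟨h7, h8⟩; have := h3 h7; omega)
    rcases Nat.lt_or_ge q 7 with h | h
    · have h7 : q = 3 ∨ q = 5 := by
        rcases ho with ⟨j, hj⟩; omega
      rcases h7 with h7 | h7
      · have h8 := hpow 3 (h3 h7)
        rw [h7] at h8 ⊢
        omega
      · have h8 := hpow 2 (h5 h7)
        rw [h7] at h8 ⊢
        omega
    · have h8 := hpow 1 hk
      rw [pow_one] at h8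
      omega

end Cus

end Cfsg.Agent.H720.PV
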