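import Cfsg.Agent.H720.PV.Top
import Cfsg.Agent.H620.PNorm
import Cfsg.Agent.H686.VO.SpFour
import Cfsg.Agent.BpCl.Rows

/-!
# The row `PSp_{2m}(q)` of S4555 and S4559, `m ≥ 3` or `q` odd (helper720)

* `psp_char_v` : the top character of `PSp` vanishes at the images of the elements of order prime to the characteristic
  with a non-zero fixed vector;
* `vz_psp` : these elements are `VZ`.
-/

set_option autoImplicit false

namespace Cfsg.Agent.H720.PV

open Cfsg Matrix Module Cfsg.Agent.Characters Cfsg.Agent.H53.HC Cfsg.Agent.H477.HC Cfsg.Agent.H620.PNorm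
open Cfsg.Agent.ClassicalGeometry.SympAutSemi

section Char

variable {K : Type} [Field K] [Finite K]

theorem psp_char_v {m : ℕ} {Z : Kˣ → Prop} {c : GL (Fin m) K → ℂ}
    (hc : Cus K m (RingHom.id K) Z c) (hv : PVan c) (h1 : Z 1) (hZ : Z (-1)) :
    ∃ χ : IrrCharacter (PSp m K), ∀ (A : symplecticGroup (Fin m) K) (n : ℕ), (n : K) ≠ 0 → A ^ n = 1 → A ≠ 1 →
      (∃ v : Fin m ⊕ Fin m → K, v ≠ 0 ∧ (A : Matrix (Fin m ⊕ Fin m) (Fin m ⊕ Fin m) K) *ᵥ v = v) →
      (χ : PSp m K → ℂ) (QuotientGroup.mk A) = 0 := by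
  classical
  obtain ⟨p, hp⟩ := CharP.exists K
  have hpr : p.Prime := (CharP.char_is_prime_or_zero K p).resolve_right (CharP.char_ne_zero_of_finite K p)
  have : Fact p.Prime := ⟨hpr⟩
  obtain ⟨⟨W₀, hW₀⟩, -⟩ := CForm.spF_frame (K := K) (p := p) m 0
  obtain ⟨χ, hχ, -, hχz, hχv⟩ := exists_char_v (CForm.spF K m) (k := m) hW₀ (Z := Z) (c := c) hc hv
  have hfin : Finite (symplecticGroup (Fin m) K) := inferInstance
  have hχ' : IsIrrCharacter _ (χ ∘ (isoSp m K).toMonoidHom) :=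
    Core.isIrr_comp (isoSp m K).toMonoidHom (isoSp m K).surjective hχ
  obtain ⟨η, hη, hη'⟩ := exists_quot (Subgroup.center (symplecticGroup (Fin m) K)) hχ' (fun z hz => by
    change χ (isoSp m K z) = χ (isoSp m K 1)
    rw [map_one]
    rcases Cfsg.Agent.ClassicalGeometry.SympInvolutions.center_eq hz with h | h
    · refine hχz _ 1 h1 fun v => ?_
      rw [isoSp_apply, h, Matrix.one_mulVec, Units.val_one, one_smul]
    · refine hχz _ (-1) hZ fun v => ?_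
      rw [isoSp_apply, h, Matrix.neg_mulVec, Matrix.one_mulVec, Units.val_neg, Units.val_one, neg_one_smul])
  refine ⟨⟨η, hη⟩, fun A n hn hA hA1 ⟨v, hv0, hv1⟩ => ?_⟩
  change η (QuotientGroup.mk A) = 0
  rw [hη']
  change χ (isoSp m K A) = 0
  have hs : ((isoSp m K A : (CForm.spF K m).iso) : (Fin m ⊕ Fin m → K) ≃ₗ[K] (Fin m ⊕ Fin m → K)) ^ n = 1 := by
    rw [← Subgroup.coe_pow, ← map_pow, hA, map_one]
    rfl
  have hdim : finrank K (Fin m ⊕ Fin m → K) = 2 * m := by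
    rw [Module.finrank_fintype_fun_eq_card, Fintype.card_sum, Fintype.card_fin]; ring
  have h3 := finrank_fix_add_mov
    ((isoSp m K A : (CForm.spF K m).iso) : (Fin m ⊕ Fin m → K) ≃ₗ[K] (Fin m ⊕ Fin m → K))
  have h4 : 0 < finrank K (LinearMap.ker ((((isoSp m K A : (CForm.spF K m).iso) :
      (Fin m ⊕ Fin m → K) ≃ₗ[K] (Fin m ⊕ Fin m → K)) : (Fin m ⊕ Fin m → K) →ₗ[K] _) - LinearMap.id)) := by
    rw [Module.finrank_pos_iff]
    refine ⟨⟨⟨v, ?_⟩, 0, ?_⟩⟩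
    · rw [LinearMap.mem_ker, LinearMap.sub_apply, LinearMap.id_apply, sub_eq_zero]
      exact hv1
    · intro h
      exact hv0 (congrArg Subtype.val h)
  have h5 : 0 < finrank K (mov ((isoSp m K A : (CForm.spF K m).iso) :
      (Fin m ⊕ Fin m → K) ≃ₗ[K] (Fin m ⊕ Fin m → K))) := by
    rw [Module.finrank_pos_iff]
    obtain ⟨w, hw⟩ : ∃ w : Fin m ⊕ Fin m → K, (A : Matrix (Fin m ⊕ Fin m) (Fin m ⊕ Fin m) K) *ᵥ w ≠ w := by
      by_contra hcon
      push Not at hcon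
      apply hA1
      apply Subtype.ext
      apply Matrix.mulVec_injective
      funext w
      change (A : Matrix (Fin m ⊕ Fin m) (Fin m ⊕ Fin m) K) *ᵥ w = (1 : Matrix (Fin m ⊕ Fin m) (Fin m ⊕ Fin m) K) *ᵥ w
      rw [hcon, Matrix.one_mulVec]
    refine ⟨⟨⟨_, ⟨w, rfl⟩⟩, 0, ?_⟩⟩
    intro h
    apply hw
    have h6 := congrArg Subtype.val h
    exact sub_eq_zero.1 h6
  refine hχv (isoSp m K A) n hn hs (by omega) (exists_moved_of_dim (CForm.spF K m) hn hs (by omega))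

end Char

section Row

variable {K : Type} [Field K] [Finite K]

/-- `m ≥ 3` or `q` odd: all automorphisms are induced by semisimilitudes -/
theorem range_Psi {m : ℕ} (hm : 2 ≤ m) (h : 3 ≤ m ∨ (2 : K) ≠ 0) (α : MulAut (PSp m K)) : ∃ g, Psi m K g = α := by
  have := Fintype.ofFinite K
  obtain ⟨g, hg⟩ := Cfsg.Agent.ClassicalGeometry.SympAutExists.exists_semi hm α
    (Cfsg.Agent.ClassicalGeometry.SympAutOddA.recog hm h α)
  exact ⟨g, hg⟩

theorem vz_psp {m : ℕ} (hm : 2 ≤ m) (h : 3 ≤ m ∨ (2 : K) ≠ 0) {Z : Kˣ → Prop} {c : GL (Fin m) K → ℂ}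
    (hc : Cus K m (RingHom.id K) Z c) (hv : PVan c) (h1 : Z 1) (hZ : Z (-1)) {A : symplecticGroup (Fin m) K} {n : ℕ}
    (hn : (n : K) ≠ 0) (hA : A ^ n = 1) (hA1 : A ≠ 1)
    (hA2 : ∃ v : Fin m ⊕ Fin m → K, v ≠ 0 ∧ (A : Matrix (Fin m ⊕ Fin m) (Fin m ⊕ Fin m) K) *ᵥ v = v) :
    H713.VZ (PSp m K) (QuotientGroup.mk A) := by
  obtain ⟨χ, hχ⟩ := psp_char_v hc hv h1 hZ
  refine ⟨χ, fun α => ?_⟩
  obtain ⟨g, rfl⟩ := range_Psi hm h α
  rw [Psi_mk]
  refine hχ _ n hn ?_ ?_ ?_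
  · rw [← map_pow, hA, map_one]
  · intro h
    exact hA1 ((conjHom m K g).injective (by rw [h, map_one]))
  · obtain ⟨v, hv0, hv1⟩ := hA2
    obtain ⟨φ, l, hl, hg⟩ := g.2
    refine ⟨g.1 v, ?_, ?_⟩
    · intro h0
      have h2 : g.1 0 = 0 := by
        have := hg.1 0 0
        rw [add_zero] at this
        exact left_eq_add.1 this
      exact hv0 (g.1.injective (h0.trans h2.symm))
    · have h3 := rho_conjHom g A
      have h4 := DFunLike.congr_fun h3 (g.1 v)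
      rw [Equiv.Perm.mul_apply, Equiv.Perm.mul_apply, perm_inv_apply_self, rho_apply, rho_apply, hv1] at h4
      exact h4

end Row

end Cfsg.Agent.H720.PV
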